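import Cfsg.Agent.H53.UniqueM22
import Cfsg.Agent.H43.M22Inner
import Cfsg.Agent.H43.M22Order
import Cfsg.Agent.H23.AutPSU.Main
import Cfsg.Agent.H89.M23.Transport

/-! A group of type M(22) has index at most two in its automorphism group. -/

set_option autoImplicit false

namespace Cfsg.Agent.H89.M22

open Subgroup H43.FischerTwins H53

variable {G : Type*} [Group G] [Finite G] {D : Set G}

/-- The automorphism group of a group of type M(22) has order at most twice that of the group. -/
theorem card_aut_le (hD : Cfsg.IsThreeTranspositionClass D)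
    (hprim : Cfsg.IsPrimitiveUnderConj D) (h : Cfsg.IsOfTypeM22 G D) :
    Nat.card (MulAut G) ≤ 2 * Nat.card G := by
  classical
  have hG := H17.class_group hD
  have hpres : ∀ φ : MulAut G, ∀ x ∈ D, φ x ∈ D := fun φ x hx => by
    rw [← class_eq hD (m22_setInside hD hprim h) (M23.class_map φ hD)]
    exact ⟨x, hx, rfl⟩
  haveI : Finite (MulAut G) := Finite.of_injective (fun φ : MulAut G => (φ : G → G))
    fun a b e => MulEquiv.ext (congrFun e)
  obtain ⟨d, hd, -⟩ := hD.2.1
  obtain ⟨F, iF, iFF, hC⟩ := exists_ctx hG hprim h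
  obtain ⟨φQ⟩ : Nonempty (NearQuot D d ≃* Cfsg.PSU 6 F 2) := by
    classical
    exact hC.iso d hd
  have hH := sub_group hG (Sset D d) (fun y hy => hy.1) (fun s hs t ht => sset_stable hG d hs ht)
  have hFq : Fintype.card F = 2 ^ 2 := by rw [hC.card]; norm_num
  -- the partners are not central
  have hnc : ∀ {y : ↥(closure (Sset D d))}, (y : G) ∈ Sset D d →
      y ∉ center ↥(closure (Sset D d)) := by
    intro y hy hcen
    have hQs := (by classical exact quasisimple_closure hC hd : Cfsg.IsQuasisimple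
        ↥(closure (Sset D d)) ∧ center ↥(closure (Sset D d)) =
          (zpowers d).subgroupOf (closure (Sset D d)))
    rw [hQs.2, mem_subgroupOf] at hcen
    obtain ⟨i, hi⟩ := hcen
    rcases Int.even_or_odd i with ⟨k, rfl⟩ | ⟨k, rfl⟩
    · exact H17.ne_one_of_orderOf (hD.1.1 _ hy.1) (by
        rw [← hi]
        show d ^ (k + k) = 1
        rw [← two_mul, zpow_mul, zpow_two, H17.sq_one hG.1 hd, one_zpow])
    · exact hy.2.1 (by
        rw [← hi]
        show d ^ (2 * k + 1) = d
        rw [zpow_add, zpow_mul, zpow_two, H17.sq_one hG.1 hd, one_zpow, one_mul, zpow_one])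
  -- the stabilizer of `d` and its action on the quotient around `d`
  let S : Subgroup (MulAut G) :=
    { carrier := {φ | φ d = d}
      one_mem' := rfl
      mul_mem' := fun {a b} ha hb => show a (b d) = d by rw [hb, ha]
      inv_mem' := fun {a} ha => a.injective (by rw [MulAut.apply_inv_self]; exact ha.symm) }
  have hex : ∀ φ : ↥S, ∃ ψ : NearQuot D d ≃* NearQuot D d, ∀ y (hy : y ∈ Sset D d)
      (hy' : (φ : MulAut G) y ∈ Sset D d),
      ψ (QuotientGroup.mk (⟨y, subset_closure hy⟩ : ↥(closure (Sset D d)))) =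
        QuotientGroup.mk (⟨(φ : MulAut G) y, subset_closure hy'⟩ : ↥(closure (Sset D d))) :=
    fun φ => (M23.exists_near_iso (φ : MulAut G) (hpres _) φ.2).imp fun _ h => h.1
  choose ψ hψ using hex
  have hm : ∀ φ : ↥S, ∀ y ∈ Sset D d, (φ : MulAut G) y ∈ Sset D d := fun φ y hy => by
    have h1 : (φ : MulAut G) y ∈ (φ : MulAut G) '' Sset D d := ⟨y, hy, rfl⟩
    rwa [M23.image_sset _ (hpres _) d, φ.2] at h1
  have hgen : closure (nearImage D d) = (⊤ : Subgroup (NearQuot D d)) := by
    rw [nearImage, ← QuotientGroup.coe_mk', ← MonoidHom.map_closure,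
      hH.2.2, map_top_of_surjective _ (QuotientGroup.mk'_surjective _)]
  have hext : ∀ α β : MulAut (NearQuot D d), (∀ y (hy : y ∈ Sset D d),
      α (QuotientGroup.mk (⟨y, subset_closure hy⟩ : ↥(closure (Sset D d)))) =
        β (QuotientGroup.mk (⟨y, subset_closure hy⟩ : ↥(closure (Sset D d))))) → α = β :=
    fun α β hab => MulEquiv.ext fun z => H43.M22.aut_ext hgen (χ := β) (by
      rintro _ ⟨⟨y, hy'⟩, hy, rfl⟩
      exact hab y hy) z
  let Φ : ↥S →* MulAut (NearQuot D d) := MonoidHom.mk' ψ fun a b => hext _ _ fun y hy => by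
    rw [MulAut.mul_apply, hψ _ y hy (hm _ y hy), hψ b y hy (hm _ y hy),
      hψ a _ (hm b y hy) (hm a _ (hm b y hy))]
    rfl
  -- the inner part
  have hcd : ∀ g : ↥(centralizer ({d} : Set G)), (g : G) * d * (g : G)⁻¹ = d := fun g => by
    rw [mem_centralizer_singleton_iff.1 g.2, mul_inv_cancel_right]
  let c : ↥(centralizer ({d} : Set G)) →* ↥S :=
    ((MulAut.conj : G →* MulAut G).comp (centralizer ({d} : Set G)).subtype).codRestrict S hcd
  have hcen : ∀ g : G, (∀ x, g * x * g⁻¹ = x) → g = 1 := fun g hg => by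
    have : g ∈ center G := mem_center_iff.2 fun x => (mul_inv_eq_iff_eq_mul.1 (hg x)).symm
    rwa [h.1, mem_bot] at this
  have hcinj : Function.Injective c := by
    rw [injective_iff_map_eq_one]
    intro g hg
    refine Subtype.ext (hcen g fun x => ?_)
    exact DFunLike.congr_fun (congrArg Subtype.val hg) x
  have hdC : d ∈ centralizer ({d} : Set G) := mem_centralizer_singleton_iff.2 rfl
  have hker : Nat.card ↥Φ.ker ∣ 2 := by
    have hsub : Φ.ker ≤ zpowers (c ⟨d, hdC⟩) := by
      intro φ hφ
      have hfix : ∀ x ∈ Sset D d, (φ : MulAut G) x = x := fun x hx => by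
        have e := hψ φ x hx (hm φ x hx)
        rw [show ψ φ = 1 from hφ, MulAut.one_apply] at e
        exact (congrArg Subtype.val (mk_inj hH (x := ⟨x, subset_closure hx⟩)
          (y := ⟨(φ : MulAut G) x, subset_closure (hm φ x hx)⟩) hx (hm φ x hx) (hnc hx) e)).symm
      rcases H43.M22.fix_global hD hprim h hd (φ : MulAut G) (hpres _) φ.2 hfix with h1 | h1
      · rw [show φ = 1 from Subtype.ext (MulEquiv.ext h1)]; exact one_mem _
      · rw [show φ = c ⟨d, hdC⟩ from Subtype.ext (MulEquiv.ext h1)]; exact mem_zpowers _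
    refine (card_dvd_of_le hsub).trans ?_
    rw [Nat.card_zpowers, orderOf_injective c hcinj, orderOf_mk, hD.1.1 d hd]
  have hP : Nat.card ↥c.range = Nat.card ↥(centralizer ({d} : Set G)) :=
    (Nat.card_congr (MonoidHom.ofInjective hcinj).toEquiv).symm
  have hS6 : Nat.card ↥S ∣ 6 * Nat.card ↥c.range := by
    have h1 : Nat.card ↥Φ.range ∣ Nat.card (MulAut (Cfsg.PSU 6 F 2)) := by
      rw [← Nat.card_congr (MulAut.congr φQ).toEquiv]
      exact card_subgroup_dvd_card _
    haveI : Fact (Nat.Prime 2) := ⟨Nat.prime_two⟩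
    rw [H23.AutPSU.card_aut (q := 2) (p := 2) (f := 1) le_rfl (pow_one 2).symm hFq (by norm_num)
      (by norm_num), H43.M22.card_psu_six hC.card] at h1
    rw [hP, H43.M22.card_centralizer hD hprim h hd, ← card_mul_index Φ.ker, index_ker]
    exact (mul_dvd_mul hker h1).trans (by norm_num)
  -- no element of order three over the inner part
  have hnorm : (c.range).Normal := ⟨by
    rintro _ ⟨g, rfl⟩ φ
    refine ⟨⟨(φ : MulAut G) g, mem_centralizer_singleton_iff.2 ?_⟩, Subtype.ext (MulEquiv.ext fun x => ?_)⟩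
    · have e := congrArg (φ : MulAut G) (mem_centralizer_singleton_iff.1 g.2)
      rwa [map_mul, map_mul, φ.2] at e
    · show (φ : MulAut G) g * x * ((φ : MulAut G) g)⁻¹ =
        (φ : MulAut G) ((g : G) * ((φ : MulAut G)⁻¹ x) * (g : G)⁻¹)
      rw [map_mul, map_mul, map_inv, MulAut.apply_inv_self]⟩
  have hthree : ¬ 3 ∣ c.range.index := by
    intro h3
    haveI : Fact (Nat.Prime 3) := ⟨Nat.prime_three⟩
    rw [index_eq_card] at h3
    obtain ⟨z, hz⟩ := exists_prime_orderOf_dvd_card' 3 h3
    obtain ⟨θ, rfl⟩ := QuotientGroup.mk_surjective z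
    have hθ3 : θ ^ 3 ∈ c.range := by
      rw [← QuotientGroup.eq_one_iff, QuotientGroup.mk_pow, ← hz, pow_orderOf_eq_one]
    obtain ⟨g, hg⟩ := hθ3
    obtain ⟨k, hk⟩ := H43.M22.inner_prop hD hprim h (θ : MulAut G) (hpres _) ⟨(g : G), fun x => by
      have e := DFunLike.congr_fun (congrArg Subtype.val hg) x
      rw [pow_succ, pow_two] at e
      exact e.symm⟩
    have hkd : k ∈ centralizer ({d} : Set G) :=
      mem_centralizer_singleton_iff.2 (mul_inv_eq_iff_eq_mul.1 ((hk d).symm.trans θ.2))
    have : θ ∈ c.range := ⟨⟨k, hkd⟩, Subtype.ext (MulEquiv.ext fun x => (hk x).symm)⟩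
    rw [← QuotientGroup.eq_one_iff] at this
    rw [this, orderOf_one] at hz
    norm_num at hz
  have hidx : c.range.index ≤ 2 := by
    have h6 : c.range.index ∣ 6 := by
      have hpos : 0 < Nat.card ↥c.range := Nat.card_pos
      refine (Nat.mul_dvd_mul_iff_left hpos).1 ?_
      rw [card_mul_index, mul_comm _ 6]
      exact hS6
    have h2 : c.range.index ∣ 2 :=
      (Nat.Coprime.dvd_of_dvd_mul_left ((Nat.prime_three.coprime_iff_not_dvd.2 hthree).symm)
        (show c.range.index ∣ 3 * 2 from h6))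
    exact Nat.le_of_dvd (by norm_num) h2
  have hScard : Nat.card ↥S ≤ 2 * Nat.card ↥(centralizer ({d} : Set G)) := by
    rw [← card_mul_index c.range, hP, mul_comm]
    exact Nat.mul_le_mul_right _ hidx
  -- the orbit of `d`
  letI act : MulAction (MulAut G) G :=
    { smul := fun φ x => φ x, one_smul := fun _ => rfl, mul_smul := fun _ _ _ => rfl }
  have hstab : MulAction.stabilizer (MulAut G) d = S := rfl
  have horb : (MulAction.orbit (MulAut G) d).ncard ≤ D.ncard :=
    Set.ncard_le_ncard (by rintro _ ⟨φ, rfl⟩; exact hpres φ d hd) (Set.toFinite _)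
  have hGorb : D.ncard * Nat.card ↥(centralizer ({d} : Set G)) = Nat.card G := by
    rw [H43.M22.card_centralizer hD hprim h hd, H43.M22.card_group hD hprim h,
      (H43.M22.counts hD hprim h).1]
    norm_num
  calc Nat.card (MulAut G) = Nat.card ↥S * (MulAction.orbit (MulAut G) d).ncard := by
        rw [← MulAction.index_stabilizer, hstab, card_mul_index]
    _ ≤ 2 * Nat.card ↥(centralizer ({d} : Set G)) * D.ncard := Nat.mul_le_mul hScard horb
    _ = 2 * Nat.card G := by rw [← hGorb]; ring

end Cfsg.Agent.H89.M22
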